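import Cfsg.Agent.H849.OZ.TFive
import Cfsg.Agent.H477.OZ.Tr
import Cfsg.Agent.H732.VZ.Exd
import Cfsg.Agent.H601.FourOdd.Tools
import Cfsg.Agent.Characters.CCBasic

/-!
# S4842: residues modulo a prime `p ∥ |G|` (helper348, for the row `PSp₁₂(2)`)

* `relIndex_le` : `|N(P) : C(P)| ≤ p - 1`;
* `sum_mod` : `|C(z)| = 6 p`, `C(z) = ⟨z⟩ × S₃`: the sum over the 2-elements is `≡ 4, - 2 (mod p)` times the degree;
* `mod_of_five` : `|C(z)| = 5 p`, the normalizer acts on `C₅` by squares, `p < 3 c`: `d ≡ ± 1 (mod p)`;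
* `mod_of_eighteen` : `|C(z)| ≤ 18 p`, `p < 2 c`: `d ≡ ± 1, ± 2, ± 4 (mod p)`.
-/

set_option autoImplicit false
set_option linter.unusedSectionVars false

namespace Cfsg.Agent.H348.OZ

open Cfsg Subgroup Finset
open Cfsg.Agent.Characters.Core Cfsg.Agent.Characters.Linear
open Cfsg.Agent.SmallSimple.ThetaSetup Cfsg.Agent.SmallSimple.ThetaOrtho Cfsg.Agent.SmallSimple.ThetaCount
open Cfsg.Agent.SmallSimple.TheoremC Cfsg.Agent.SmallSimple.TheoremCCor
open Cfsg.Agent.H732.VZ (One)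
open Cfsg.Agent.H849.OZ
open Cfsg.Agent.H730.OZ (pSet)

universe u

section orb

variable {G : Type u} [Group G] [Finite G] {p : ℕ} [Fact p.Prime] {P : Sylow p G} {K : Subgroup G}

/-- The orbit of the trivial character. -/
theorem card_orb_one (hK : IsComp p (P : Subgroup G) K) : (orb P K (1 : K → ℂ)).card ≤ 1 := by
  rw [Finset.card_le_one]
  intro a ha b hb
  obtain ⟨m, hm, hma⟩ := mem_orb.1 ha
  obtain ⟨m', hm', hmb⟩ := mem_orb.1 hb
  rw [tw_one_char hK hm] at hma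
  rw [tw_one_char hK hm'] at hmb
  exact Subtype.ext (hma.symm.trans hmb)

/-- The trivial character is alone in its orbit. -/
theorem card_orb_of_one_mem (hK : IsComp p (P : Subgroup G) K) {θ : IrrCharacter K} {τ : IrrCharacter K}
    (hτ : τ ∈ orb P K (θ : K → ℂ)) (h1 : (τ : K → ℂ) = 1) : (orb P K (θ : K → ℂ)).card ≤ 1 := by
  obtain ⟨n, hn, h3⟩ := mem_orb.1 hτ
  have h4 : (θ : K → ℂ) = 1 := by
    have h5 := congrArg (fun f : K → ℂ => tw f n⁻¹) h3
    change tw (tw (θ : K → ℂ) n) n⁻¹ = tw (τ : K → ℂ) n⁻¹ at h5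
    rw [← tw_mul hK _ hn (inv_mem hn), mul_inv_cancel, tw_one, h1, tw_one_char hK (inv_mem hn)] at h5
    exact h5
  rw [h4]
  exact card_orb_one hK

/-- `|N(P) : C(P)| ≤ p - 1`. -/
theorem relIndex_le (hK : IsComp p (P : Subgroup G) K) (hP : Nat.card P = p) :
    (centralizer ((P : Subgroup G) : Set G)).relIndex (normalizer ((P : Subgroup G) : Set G)) ≤ p - 1 := by
  have hpp : p.Prime := Fact.out
  have h1irr : IsIrrCharacter K (1 : K → ℂ) := Cfsg.Agent.Characters.Core.isIrr_one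
  have h1 := card_stabAct_mul_card_orb hK hP h1irr
  have h2 := card_orb_one (P := P) hK
  have hed : Nat.card (stabAct hK (1 : K → ℂ)) ∣ p - 1 := by
    have h1 : Nat.card (MulAut P) = p - 1 := by
      have : IsCyclic (P : Subgroup G) := isCyclic_of_prime_card hP
      rw [IsCyclic.card_mulAut, hP, Nat.totient_prime hpp]
    rw [← h1]
    exact card_subgroup_dvd_card _
  have h3 := Nat.le_of_dvd (by have := hpp.two_le; omega) hed
  rw [← h1]
  calc Nat.card (stabAct hK (1 : K → ℂ)) * (orb P K (1 : K → ℂ)).card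
      ≤ Nat.card (stabAct hK (1 : K → ℂ)) * 1 := Nat.mul_le_mul_left _ h2
    _ ≤ p - 1 := by rw [mul_one]; exact h3

theorem tw_pow_apply (hK : IsComp p (P : Subgroup G) K) {n : G} (hn : n ∈ normalizer ((P : Subgroup G) : Set G))
    (hny : ∀ y : K, n * (y : G) * n⁻¹ = (y : G) ^ 2) (θ : K → ℂ) (j : ℕ) (y : K) :
    tw θ (n ^ j) y = θ (y ^ 2 ^ j) := by
  induction j generalizing θ y with
  | zero => rw [pow_zero, tw_one, pow_zero, pow_one]
  | succ j ih =>
    rw [pow_succ, tw_mul hK _ (pow_mem hn j) hn, tw_apply hK _ hn]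
    have h1 : (⟨n * (y : G) * n⁻¹, conj_mem hK hn y.2⟩ : K) = y ^ 2 := Subtype.ext (hny y)
    rw [h1, ih, ← pow_mul, ← pow_succ']

/-- `|K| = 5`, an element of the normalizer acts by squares: an orbit has one or at least four elements. -/
theorem card_orb_of_five (hK : IsComp p (P : Subgroup G) K) (h5 : Nat.card K = 5) {n : G}
    (hn : n ∈ normalizer ((P : Subgroup G) : Set G)) (hny : ∀ y : K, n * (y : G) * n⁻¹ = (y : G) ^ 2)
    (θ : IrrCharacter K) (h3 : (orb P K (θ : K → ℂ)).card ≤ 3) : (orb P K (θ : K → ℂ)).card ≤ 1 := by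
  classical
  have hF5 : Fact (Nat.Prime 5) := ⟨by norm_num⟩
  have hcyc : IsCyclic K := isCyclic_of_prime_card h5
  have hc : ∀ a b : K, a * b = b * a := fun a b => (IsCyclic.isMulCommutative (α := K)).is_comm.comm a b
  obtain ⟨f, hf⟩ := exists_hom_of_isIrrCharacter θ.2 (Characters.CCBasic.irr_apply_one_of_comm hc θ.2)
  by_cases h1 : ∀ y : K, (f y : ℂ) = 1
  · have h2 : (θ : K → ℂ) = 1 := by
      rw [hf]
      funext y
      exact h1 y
    rw [h2]
    exact card_orb_one hK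
  exfalso
  push Not at h1
  obtain ⟨y, hy⟩ := h1
  set ζ : ℂ := (f y : ℂ) with hζ
  have hζ5 : ζ ^ 5 = 1 := by
    rw [hζ, ← Units.val_pow_eq_pow_val, ← map_pow, ← h5, pow_card_eq_one', map_one, Units.val_one]
  have hpow : ∀ m : ℕ, (θ : K → ℂ) (y ^ m) = ζ ^ m := by
    intro m
    rw [hf, hζ]
    simp only [map_pow, Units.val_pow_eq_pow_val]
  have hmem : ∀ j : ℕ, ∃ τ ∈ orb P K (θ : K → ℂ), (τ : K → ℂ) y = ζ ^ 2 ^ j := by
    intro j
    refine ⟨⟨tw (θ : K → ℂ) (n ^ j), isIrr_tw hK θ.2 (pow_mem hn j)⟩, mem_orb.2 ⟨n ^ j, pow_mem hn j, rfl⟩, ?_⟩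
    change tw (θ : K → ℂ) (n ^ j) y = _
    rw [tw_pow_apply hK hn hny, hpow]
  have hprim : IsPrimitiveRoot ζ 5 := IsPrimitiveRoot.iff_orderOf.2 (orderOf_eq_prime hζ5 hy)
  have hsub : (Finset.Ico 1 5).image (fun j => ζ ^ j) ⊆ (orb P K (θ : K → ℂ)).image fun τ : IrrCharacter K => (τ : K → ℂ) y := by
    intro z hz
    obtain ⟨j, hj, rfl⟩ := Finset.mem_image.1 hz
    rw [Finset.mem_Ico] at hj
    obtain ⟨i, hi⟩ : ∃ i : ℕ, ζ ^ 2 ^ i = ζ ^ j := by
      obtain ⟨h1, h2⟩ := hj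
      have hj' : j = 1 ∨ j = 2 ∨ j = 3 ∨ j = 4 := by omega
      rcases hj' with rfl | rfl | rfl | rfl
      · exact ⟨0, by norm_num⟩
      · exact ⟨1, by norm_num⟩
      · refine ⟨3, ?_⟩
        calc ζ ^ 2 ^ 3 = ζ ^ 5 * ζ ^ 3 := by ring
          _ = ζ ^ 3 := by rw [hζ5, one_mul]
      · exact ⟨2, by norm_num⟩
    obtain ⟨τ, hτ, hτy⟩ := hmem i
    exact Finset.mem_image.2 ⟨τ, hτ, hτy.trans hi⟩
  have hcard : ((Finset.Ico 1 5).image (fun j => ζ ^ j)).card = 4 := by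
    rw [Finset.card_image_of_injOn]
    · rfl
    · intro a ha b hb hab
      have ha' := Finset.mem_Ico.1 (Finset.mem_coe.1 ha)
      have hb' := Finset.mem_Ico.1 (Finset.mem_coe.1 hb)
      exact hprim.pow_inj (by omega) (by omega) hab
  have h2 := Finset.card_le_card hsub
  have h4 := Finset.card_image_le (s := orb P K (θ : K → ℂ)) (f := fun τ : IrrCharacter K => (τ : K → ℂ) y)
  omega

end orb

section final

variable {G : Type u} [Group G] [Finite G] [IsSimpleGroup G] {p : ℕ}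

/-- `|C(z)| = 5 p`, the normalizer acts on `C₅` by squares, `p < 3 c`. -/
theorem mod_of_five (hp : p.Prime) (h7 : 7 ≤ p) (hsq : ¬ p ^ 2 ∣ Nat.card G) (hG : Nat.card G ≠ p) {g n : G}
    (hg : orderOf g = 5 * p) (hC : Nat.card (centralizer ({g ^ 5} : Set G)) ≤ 5 * p) (hn : n * g = g ^ 2 * n)
    {χ : IrrCharacter G} {x : G} (h : One χ x) (hx : ¬ p ∣ orderOf x)
    (hc : p < 3 * Nat.card (centralizer ({x} : Set G))) (h4 : 4 ≤ Nat.card (centralizer ({x} : Set G))) :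
    charDegree (χ : G → ℂ) % p = 1 ∨ charDegree (χ : G → ℂ) % p = p - 1 := by
  classical
  have hF : Fact p.Prime := ⟨hp⟩
  set z := g ^ 5 with hzdef
  have hz : orderOf z = p := by
    rw [hzdef, orderOf_pow_of_dvd (by norm_num) (by rw [hg]; exact dvd_mul_right 5 p), hg]
    exact Nat.mul_div_cancel_left p (by norm_num)
  obtain ⟨P, hPz, hP⟩ := exists_sylow hp hsq hz
  obtain ⟨K, hK⟩ := exists_isComp P hP
  have hzP : z ∈ (P : Subgroup G) := by rw [hPz]; exact mem_zpowers z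
  have hz1 : z ≠ 1 := by
    intro h1
    rw [h1, orderOf_one] at hz
    exact hp.one_lt.ne hz
  have hd : p ∣ Nat.card G := hz ▸ _root_.orderOf_dvd_natCard z
  have hw2 := normalizer_ne hd hG (P := P) rfl
  -- `C(z) = ⟨g⟩`
  have hgz : zpowers g ≤ centralizer ({z} : Set G) := by
    rw [zpowers_le, mem_centralizer_singleton_iff, hzdef, ← pow_succ, ← pow_succ']
  have hCz : centralizer ({z} : Set G) = zpowers g := by
    refine (eq_of_le_of_card_ge hgz ?_).symm
    rw [Nat.card_zpowers, hg]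
    exact hC
  have hCP : centralizer ((P : Subgroup G) : Set G) = zpowers g := by
    rw [← Blocks.CyclicOrtho.centralizer_eq P hP hzP hz1, hCz]
  have hK5 : Nat.card K = 5 := by
    have h1 := H849.OZ.card_centralizer hK hP
    rw [hCP, Nat.card_zpowers, hg, mul_comm] at h1
    exact (Nat.eq_of_mul_eq_mul_left hp.pos h1).symm
  -- the action of `n`
  have hng : n * g * n⁻¹ = g ^ 2 := by rw [hn, mul_inv_cancel_right]
  have hact : ∀ y ∈ zpowers g, n * y * n⁻¹ = y ^ 2 := by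
    intro y hy
    obtain ⟨i, rfl⟩ := mem_zpowers_iff.1 hy
    rw [← conj_zpow, hng, ← _root_.zpow_natCast, ← _root_.zpow_natCast, ← _root_.zpow_mul, ← _root_.zpow_mul,
      mul_comm]
  have hzg : z ∈ zpowers g := pow_mem (mem_zpowers g) 5
  have hz2 : z ^ 2 ≠ 1 := by
    intro h2
    have h3 := Nat.le_of_dvd two_pos (orderOf_dvd_of_pow_eq_one h2)
    omega
  have hnN : n ∈ normalizer ((P : Subgroup G) : Set G) :=
    mem_normalizer_of_conj hP hzP (pow_mem hzP 2) hz2 (hact z hzg)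
  refine mod_of_orb hK hP h hx rfl (fun e t het ht he => arith h4 h7 hw2 het ht he) (fun θ hθ =>
    card_orb_of_five hK hK5 hnN (fun y => hact y (hCP ▸ hK.le y.2)) θ ?_)
  have hw := relIndex_le hK hP
  by_contra hlt
  have h1 : 3 ≤ (orb P K (θ : K → ℂ)).card - 1 := by omega
  have hp1 : 0 < p - 1 := by omega
  have h2 : Nat.card (centralizer ({x} : Set G)) * (3 * (p - 1)) ≤ (p - 1) * p :=
    (Nat.mul_le_mul_left _ (Nat.mul_le_mul_right _ h1)).trans (hθ.trans (Nat.mul_le_mul_right _ hw))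
  have h3 : (3 * Nat.card (centralizer ({x} : Set G))) * (p - 1) ≤ p * (p - 1) := by
    calc _ = Nat.card (centralizer ({x} : Set G)) * (3 * (p - 1)) := by ring
      _ ≤ (p - 1) * p := h2
      _ = _ := mul_comm _ _
  exact absurd (Nat.le_of_mul_le_mul_right h3 hp1) (by omega)

/-- `|C(z)| ≤ 18 p`, `p < 2 c`. -/
theorem mod_of_eighteen (hp : p.Prime) (h7 : 7 ≤ p) (hsq : ¬ p ^ 2 ∣ Nat.card G) (hG : Nat.card G ≠ p) {z : G}
    (hz : orderOf z = p) (hC : Nat.card (centralizer ({z} : Set G)) ≤ 18 * p)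
    {χ : IrrCharacter G} {x : G} (h : One χ x) (hx : ¬ p ∣ orderOf x)
    (hc : p < 2 * Nat.card (centralizer ({x} : Set G))) (h4 : 4 ≤ Nat.card (centralizer ({x} : Set G))) :
    ∃ ε s k : ℤ, (ε = 1 ∨ ε = -1) ∧ (s = 1 ∨ s = 2 ∨ s = 4) ∧ (charDegree (χ : G → ℂ) : ℤ) = ε * s + p * k := by
  classical
  have hF : Fact p.Prime := ⟨hp⟩
  obtain ⟨P, hPz, hP⟩ := exists_sylow hp hsq hz
  obtain ⟨K, hK⟩ := exists_isComp P hP
  have hzP : z ∈ (P : Subgroup G) := by rw [hPz]; exact mem_zpowers z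
  have hz1 : z ≠ 1 := by
    rintro rfl
    rw [orderOf_one] at hz
    exact hp.one_lt.ne hz
  have hd : p ∣ Nat.card G := hz ▸ _root_.orderOf_dvd_natCard z
  have hw2 := normalizer_ne hd hG (P := P) rfl
  have hexc := fun (e t : ℕ) (het : e * t = p - 1) (ht : 2 ≤ t) he => arith h4 h7 hw2 het ht he
  have hK18 : Nat.card K ≤ 18 := by
    have h1 := H849.OZ.card_centralizer hK hP
    rw [← Blocks.CyclicOrtho.centralizer_eq P hP hzP hz1] at h1
    rw [h1, mul_comm 18 p] at hC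
    exact Nat.le_of_mul_le_mul_left hC hp.pos
  obtain ⟨θ, ε, hε, hval, ⟨k, hk⟩, hcc⟩ := five hK hP h hx rfl hexc
  have hmem : θ ∈ orb P K (θ : K → ℂ) := mem_orb.2 ⟨1, one_mem _, tw_one _⟩
  have hw := relIndex_le hK hP
  have hk2 : (orb P K (θ : K → ℂ)).card ≤ 2 := by
    by_contra hlt
    have h1 : 2 ≤ (orb P K (θ : K → ℂ)).card - 1 := by omega
    have hp1 : 0 < p - 1 := by omega
    have h2 : Nat.card (centralizer ({x} : Set G)) * (2 * (p - 1)) ≤ (p - 1) * p :=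
      (Nat.mul_le_mul_left _ (Nat.mul_le_mul_right _ h1)).trans (hcc.trans (Nat.mul_le_mul_right _ hw))
    have h3 : (2 * Nat.card (centralizer ({x} : Set G))) * (p - 1) ≤ p * (p - 1) := by
      calc _ = Nat.card (centralizer ({x} : Set G)) * (2 * (p - 1)) := by ring
        _ ≤ (p - 1) * p := h2
        _ = _ := mul_comm _ _
    exact absurd (Nat.le_of_mul_le_mul_right h3 hp1) (by omega)
  have hdeg : ∀ θ' ∈ orb P K (θ : K → ℂ), (θ' : K → ℂ) 1 = (charDegree (θ : K → ℂ) : ℂ) := by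
    intro θ' hθ'
    obtain ⟨n, hn, h1⟩ := mem_orb.1 hθ'
    have h2 : (⟨n * ((1 : K) : G) * n⁻¹, conj_mem hK hn (1 : K).2⟩ : K) = 1 := Subtype.ext (by simp)
    rw [← h1, tw_apply hK _ hn, ← H601.FourOdd.charDegree_cast, h2]
  rw [Finset.sum_congr rfl hdeg, Finset.sum_const, nsmul_eq_mul] at hk
  have h8 : (charDegree (χ : G → ℂ) : ℤ) = ε * (((orb P K (θ : K → ℂ)).card * charDegree (θ : K → ℂ) : ℕ) : ℤ) + p * k := by
    have h9 := Cfsg.Agent.H686.CharKit.charDegree_irr χ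
    rw [hk] at h9
    exact_mod_cast h9
  refine ⟨ε, _, k, hε, ?_, h8⟩
  have hδ : 0 < charDegree (θ : K → ℂ) := Cfsg.Agent.H686.CharKit.charDegree_pos θ
  rcases Nat.lt_or_ge (orb P K (θ : K → ℂ)).card 2 with h1 | h1
  · -- one `θ`
    have h2 : (orb P K (θ : K → ℂ)).card = 1 := by
      have := Finset.card_pos.2 ⟨θ, hmem⟩
      omega
    have h3 : orb P K (θ : K → ℂ) = {θ} := by
      obtain ⟨a, ha⟩ := Finset.card_eq_one.1 h2
      rw [ha] at hmem ⊢
      rw [Finset.mem_singleton.1 hmem]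
    obtain ⟨u, hu, hu1⟩ := exists_ne_one hP
    have h4 : ∀ y : K, (θ : K → ℂ) y ≠ 0 := by
      intro y hy
      have h5 : (χ : G → ℂ) (u * y) = 0 := by
        rw [hval u hu hu1 y, h3, Finset.sum_singleton, hy, mul_zero]
      have h6 : p ∣ orderOf (u * (y : G)) := by
        have := Fintype.ofFinite G
        exact mem_Sg.1 (Dg_sub hK hP (mem_Dg.2 ⟨u, hu, hu1, y, y.2, rfl⟩))
      obtain ⟨a, ha⟩ := isConj_iff.1 (h.uniq _ h5)
      apply hx
      rwa [← ha, ← MulAut.conj_apply, MulEquiv.orderOf_eq] at h6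
    have h5 := deg_one_of_no_zero θ h4
    rw [H601.FourOdd.charDegree_cast] at h5
    have h6 : charDegree (θ : K → ℂ) = 1 := by exact_mod_cast h5
    left
    rw [h2, h6]
    rfl
  · -- two
    have h2 : (orb P K (θ : K → ℂ)).card = 2 := le_antisymm hk2 h1
    have : Finite (IrrCharacter K) := finite_irr
    have := Fintype.ofFinite (IrrCharacter K)
    have h3 := H601.FourOdd.sum_sq (G := K)
    let τ : IrrCharacter K := ⟨1, Cfsg.Agent.Characters.Core.isIrr_one⟩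
    have hτ : τ ∉ orb P K (θ : K → ℂ) := fun hτ => by
      have := card_orb_of_one_mem hK hτ rfl
      omega
    have hτ1 : charDegree (τ : K → ℂ) = 1 := by
      have h4 : (τ : K → ℂ) 1 = 1 := rfl
      rw [H601.FourOdd.charDegree_cast] at h4
      exact_mod_cast h4
    have h4 : ∑ θ' ∈ insert τ (orb P K (θ : K → ℂ)), charDegree (θ' : K → ℂ) ^ 2 ≤ Nat.card K := by
      rw [← h3]
      exact Finset.sum_le_sum_of_subset (Finset.subset_univ _)
    have h5 : ∀ θ' ∈ orb P K (θ : K → ℂ), charDegree (θ' : K → ℂ) ^ 2 = charDegree (θ : K → ℂ) ^ 2 := by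
      intro θ' hθ'
      have h6 := hdeg θ' hθ'
      rw [H601.FourOdd.charDegree_cast] at h6
      have h7 : charDegree (θ' : K → ℂ) = charDegree (θ : K → ℂ) := by exact_mod_cast h6
      rw [h7]
    rw [Finset.sum_insert hτ, Finset.sum_congr rfl h5, Finset.sum_const, h2, hτ1, smul_eq_mul] at h4
    have h6 : charDegree (θ : K → ℂ) ≤ 2 := by
      by_contra hlt
      have h7 : 3 ≤ charDegree (θ : K → ℂ) := by omega
      have h9 := Nat.pow_le_pow_left h7 2
      omega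
    right
    rw [h2]
    have h7 : charDegree (θ : K → ℂ) = 1 ∨ charDegree (θ : K → ℂ) = 2 := by omega
    rcases h7 with h7 | h7
    · left
      rw [h7]
      rfl
    · right
      rw [h7]
      rfl

/-- The value at `z t`, `t` an involution of `C(z)`: `± χ z`. -/
theorem exists_sign (hp : p.Prime) (h7 : 7 ≤ p) (hsq : ¬ p ^ 2 ∣ Nat.card G) (hG : Nat.card G ≠ p) {z : G}
    (hz : orderOf z = p) (hcl : ∀ y y' : G, z * y = y * z → z * y' = y' * z → ¬ p ∣ orderOf y → orderOf y = orderOf y' →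
      ∃ k : G, z * k = k * z ∧ k * y * k⁻¹ = y')
    {χ : IrrCharacter G} {x : G} (h : One χ x) (hx : ¬ p ∣ orderOf x)
    (h4 : 4 ≤ Nat.card (centralizer ({x} : Set G))) {t : G} (ht : t ^ 2 = 1) (hzt : z * t = t * z) :
    ∃ s : ℤ, (s = 1 ∨ s = -1) ∧ (χ : G → ℂ) (z * t) = s * (χ : G → ℂ) z := by
  classical
  have hF : Fact p.Prime := ⟨hp⟩
  obtain ⟨P, hPz, hP⟩ := exists_sylow hp hsq hz
  obtain ⟨K, hK⟩ := exists_isComp P hP
  have hzP : z ∈ (P : Subgroup G) := by rw [hPz]; exact mem_zpowers z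
  have hz1 : z ≠ 1 := by
    rintro rfl
    rw [orderOf_one] at hz
    exact hp.one_lt.ne hz
  have hd : p ∣ Nat.card G := hz ▸ _root_.orderOf_dvd_natCard z
  have hw2 := normalizer_ne hd hG (P := P) rfl
  have hCz : ∀ y, y ∈ K → z * y = y * z := fun y hy => hK.comm hzP hy
  have horb : ∀ θ : IrrCharacter K, (orb P K (θ : K → ℂ)).card ≤ 1 := fun θ =>
      card_orb_of_conj hK (fun y y' hyy => by
    obtain ⟨k, hk, hky⟩ := hcl y y' (hCz y y.2) (hCz y' y'.2) ((hK y).1 y.2).2 (by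
      rw [Subgroup.orderOf_coe, Subgroup.orderOf_coe]
      exact hyy)
    have hkC : k ∈ centralizer ((P : Subgroup G) : Set G) := by
      rw [← Blocks.CyclicOrtho.centralizer_eq P hP hzP hz1, mem_centralizer_singleton_iff]
      exact hk.symm
    obtain ⟨a, ha, b, hb, hab⟩ := hK.exists_mul hP hkC
    refine isConj_iff.2 ⟨⟨b, hb⟩, Subtype.ext ?_⟩
    change b * (y : G) * b⁻¹ = y'
    have h1 : a * (b * (y : G) * b⁻¹) = (b * (y : G) * b⁻¹) * a :=
      hK.comm ha (mul_mem (mul_mem hb y.2) (inv_mem hb))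
    rw [← hky, ← hab]
    calc b * (y : G) * b⁻¹ = (b * (y : G) * b⁻¹ * a) * a⁻¹ := by group
      _ = (a * (b * (y : G) * b⁻¹)) * a⁻¹ := by rw [h1]
      _ = a * b * y * (a * b)⁻¹ := by group) θ
  obtain ⟨θ, ε, hε, hval, -, -⟩ := five hK hP h hx rfl (fun e t het ht he => arith h4 h7 hw2 het ht he)
  have hmem : θ ∈ orb P K (θ : K → ℂ) := mem_orb.2 ⟨1, one_mem _, tw_one _⟩
  have h3 : orb P K (θ : K → ℂ) = {θ} :=
    Finset.eq_singleton_iff_unique_mem.2 ⟨hmem, fun θ' hθ' => Finset.card_le_one.1 (horb θ) _ hθ' _ hmem⟩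
  have hnz : ∀ y : K, (θ : K → ℂ) y ≠ 0 := by
    intro y hy
    have h5 : (χ : G → ℂ) (z * y) = 0 := by
      rw [hval z hzP hz1 y, h3, Finset.sum_singleton, hy, mul_zero]
    have h6 : p ∣ orderOf (z * (y : G)) := by
      have := Fintype.ofFinite G
      exact mem_Sg.1 (Dg_sub hK hP (mem_Dg.2 ⟨z, hzP, hz1, y, y.2, rfl⟩))
    obtain ⟨a, ha⟩ := isConj_iff.1 (h.uniq _ h5)
    apply hx
    rwa [← ha, ← MulAut.conj_apply, MulEquiv.orderOf_eq] at h6
  obtain ⟨f, hf⟩ := exists_hom_of_isIrrCharacter θ.2 (deg_one_of_no_zero θ hnz)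
  have hv : ∀ y : K, (χ : G → ℂ) (z * y) = ε * (f y : ℂ) := by
    intro y
    rw [hval z hzP hz1 y, h3, Finset.sum_singleton, hf]
  have hv1 : (χ : G → ℂ) z = ε := by
    have h5 := hv 1
    rwa [map_one, Units.val_one, mul_one, Subgroup.coe_one, mul_one] at h5
  have htK : t ∈ K := by
    rw [hK, ← Blocks.CyclicOrtho.centralizer_eq P hP hzP hz1, mem_centralizer_singleton_iff]
    refine ⟨hzt.symm, fun hd => ?_⟩
    have h5 := Nat.le_of_dvd two_pos (hd.trans (orderOf_dvd_of_pow_eq_one ht))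
    omega
  have hf2 : (f ⟨t, htK⟩ : ℂ) ^ 2 = 1 := by
    have h5 : (⟨t, htK⟩ : K) ^ 2 = 1 := Subtype.ext ht
    rw [← Units.val_pow_eq_pow_val, ← map_pow, h5, map_one, Units.val_one]
  have h5 := hv ⟨t, htK⟩
  rw [pow_two] at hf2
  rcases mul_self_eq_one_iff.1 hf2 with h6 | h6
  · exact ⟨1, Or.inl rfl, by rw [h5, hv1, h6]; push_cast; ring⟩
  · exact ⟨-1, Or.inr rfl, by rw [h5, hv1, h6]; push_cast; ring⟩

/-- **The sum over the 2-elements modulo `p`**, `C(z) = ⟨z⟩ × S₃`. -/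
theorem sum_mod (hp : p.Prime) (h7 : 7 ≤ p) (hsq : ¬ p ^ 2 ∣ Nat.card G) (hG : Nat.card G ≠ p) {z a b : G}
    (hz : orderOf z = p) (h6 : Nat.card (centralizer ({z} : Set G)) = 6 * p) (ha : a * a = 1) (ha1 : a ≠ 1)
    (haz : a * z = z * a) (hbz : b * z = z * b) (hab : b * a ≠ a * b)
    (hcl : ∀ y y' : G, z * y = y * z → z * y' = y' * z → ¬ p ∣ orderOf y → orderOf y = orderOf y' →
      ∃ k : G, z * k = k * z ∧ k * y * k⁻¹ = y')
    {χ : IrrCharacter G} {x : G} (h : One χ x) (hx : ¬ p ∣ orderOf x)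
    (h4 : 4 ≤ Nat.card (centralizer ({x} : Set G))) (hd : ¬ p ∣ charDegree (χ : G → ℂ)) {lam : ℤ}
    (hlam : ∑ᶠ u ∈ pSet 2 G, (χ : G → ℂ) u = lam * (χ : G → ℂ) 1) : (p : ℤ) ∣ lam - 4 ∨ (p : ℤ) ∣ lam + 2 := by
  classical
  have := Fintype.ofFinite G
  have hF2 : Fact (Nat.Prime 2) := ⟨Nat.prime_two⟩
  have hp2 : p ≠ 2 := by omega
  have hodd : ¬ 2 ∣ p := fun hd => hp2 ((Nat.prime_dvd_prime_iff_eq Nat.prime_two hp).1 hd).symm
  obtain ⟨s, hs, hsa⟩ := exists_sign hp h7 hsq hG hz hcl h hx h4 (t := a) (by rw [pow_two]; exact ha) haz.symm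
  have hoa : orderOf a = 2 := orderOf_eq_prime (by rw [pow_two]; exact ha) ha1
  have hord : ∀ v : G, z * v = v * z → v ∈ pSet 2 G → v ≠ 1 → orderOf v = 2 := by
    rintro v hv1 ⟨k, hk⟩ hv
    have h1 : orderOf v ∣ 6 * p := by
      rw [← h6]
      exact Subgroup.orderOf_dvd_natCard _ (mem_centralizer_singleton_iff.2 hv1.symm)
    rcases Nat.lt_or_ge k 2 with h2 | h2
    · have h3 : k = 0 ∨ k = 1 := by omega
      rcases h3 with rfl | rfl
      · rw [pow_zero, orderOf_eq_one_iff] at hk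
        exact absurd hk hv
      · rw [hk, pow_one]
    · exfalso
      rw [hk] at h1
      have h3 : 2 ^ 2 ∣ 6 * p := (pow_dvd_pow 2 h2).trans h1
      omega
  have hconj : ∀ v : G, z * v = v * z → v ∈ pSet 2 G → v ≠ 1 → ∃ k, z * k = k * z ∧ k * a * k⁻¹ = v := by
    intro v hv1 hv2 hv
    refine hcl a v haz.symm hv1 ?_ (by rw [hoa, hord v hv1 hv2 hv])
    rw [hoa]
    intro hd
    have := Nat.le_of_dvd two_pos hd
    omega
  have hval : ∀ v : G, z * v = v * z → v ∈ pSet 2 G → v ≠ 1 → (χ : G → ℂ) (z * v) = s * (χ : G → ℂ) z := by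
    intro v hv1 hv2 hv
    obtain ⟨k, hk, rfl⟩ := hconj v hv1 hv2 hv
    have h1 : z * (k * a * k⁻¹) = k * (z * a) * k⁻¹ := by
      calc z * (k * a * k⁻¹) = (z * k) * a * k⁻¹ := by group
        _ = (k * z) * a * k⁻¹ := by rw [hk]
        _ = _ := by group
    rw [h1, isIrr_isClassFunction χ.2, hsa]
  -- the class of `a` in `C(z)`
  set C := centralizer ({z} : Set G) with hC
  let a' : C := ⟨a, mem_centralizer_singleton_iff.2 haz⟩
  let b' : C := ⟨b, mem_centralizer_singleton_iff.2 hbz⟩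
  let z' : C := ⟨z, mem_centralizer_singleton_iff.2 rfl⟩
  have hc1 := H732.VZ.card_cl a'
  rw [h6] at hc1
  set m := (H732.VZ.cl a').card with hm
  have hD2 : 2 ∣ Nat.card (centralizer ({a'} : Set C)) := by
    have h1 := Subgroup.orderOf_dvd_natCard (centralizer ({a'} : Set C)) (x := a') (mem_centralizer_singleton_iff.2 rfl)
    rwa [← Subgroup.orderOf_coe, show ((a' : C) : G) = a from rfl, hoa] at h1
  have hDp : p ∣ Nat.card (centralizer ({a'} : Set C)) := by
    have h1 := Subgroup.orderOf_dvd_natCard (centralizer ({a'} : Set C)) (x := z')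
      (mem_centralizer_singleton_iff.2 (Subtype.ext haz.symm))
    rwa [← Subgroup.orderOf_coe, show ((z' : C) : G) = z from rfl, hz] at h1
  have hm3 : m = 3 := by
    have h1 : 2 * p ∣ Nat.card (centralizer ({a'} : Set C)) :=
      ((Nat.coprime_primes Nat.prime_two hp).2 (Ne.symm hp2)).mul_dvd_of_dvd_of_dvd hD2 hDp
    obtain ⟨k, hk⟩ := h1
    rw [hk] at hc1
    have h2 : m * k = 3 := by
      apply Nat.eq_of_mul_eq_mul_left (show 0 < 2 * p by have := hp.pos; omega)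
      calc 2 * p * (m * k) = m * (2 * p * k) := by ring
        _ = 6 * p := hc1
        _ = _ := by ring
    rcases (Nat.dvd_prime Nat.prime_three).1 (Dvd.intro _ h2) with h3 | h3
    · exfalso
      rw [hm, Finset.card_eq_one] at h3
      obtain ⟨w, hw⟩ := h3
      have h5 : a' ∈ H732.VZ.cl a' := H732.VZ.mem_cl.2 (IsConj.refl _)
      have h8 : b' * a' * b'⁻¹ ∈ H732.VZ.cl a' := H732.VZ.mem_cl.2 (isConj_iff.2 ⟨b', rfl⟩)
      rw [hw, Finset.mem_singleton] at h5 h8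
      have h9 : b' * a' * b'⁻¹ = a' := h8.trans h5.symm
      rw [mul_inv_eq_iff_eq_mul] at h9
      exact hab (congrArg Subtype.val h9)
    · exact h3
  -- the set of the 2-elements of `C(z)`
  have hone : (1 : G) ∈ pSet 2 G := ⟨0, by rw [orderOf_one, pow_zero]⟩
  let Tf : Finset G := (H732.VZ.cl a').map ⟨Subtype.val, Subtype.val_injective⟩
  have hTf : ∀ v, v ∈ Tf ↔ ∃ k, z * k = k * z ∧ k * a * k⁻¹ = v := by
    intro v
    rw [Finset.mem_map]
    constructor
    · rintro ⟨y, hy, rfl⟩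
      obtain ⟨k, hk⟩ := isConj_iff.1 (H732.VZ.mem_cl.1 hy)
      exact ⟨k, (mem_centralizer_singleton_iff.1 k.2).symm, congrArg Subtype.val hk⟩
    · rintro ⟨k, hk, rfl⟩
      refine ⟨(⟨k, mem_centralizer_singleton_iff.2 hk.symm⟩ : C) * a' * (⟨k, mem_centralizer_singleton_iff.2 hk.symm⟩ : C)⁻¹,
        H732.VZ.mem_cl.2 (isConj_iff.2 ⟨_, rfl⟩), rfl⟩
  have h1Tf : (1 : G) ∉ Tf := by
    rw [hTf]
    rintro ⟨k, -, hk⟩
    exact ha1 (conj_eq_one_iff.1 hk)
  have hT : {v : G | Commute z v ∧ v ∈ pSet 2 G} = ((insert 1 Tf : Finset G) : Set G) := by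
    ext v
    rw [Set.mem_ofPred_eq, Finset.mem_coe, Finset.mem_insert, hTf]
    constructor
    · rintro ⟨hv1, hv2⟩
      by_cases hv : v = 1
      · exact Or.inl hv
      · exact Or.inr (hconj v hv1.eq hv2 hv)
    · rintro (rfl | ⟨k, hk, rfl⟩)
      · exact ⟨Commute.one_right z, hone⟩
      · refine ⟨?_, 1, ?_⟩
        · have e1 : Commute z k := hk
          exact (e1.mul_right haz.symm).mul_right e1.inv_right
        · rw [pow_one, ← MulAut.conj_apply, MulEquiv.orderOf_eq, hoa]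
  let w : G → AlgInt := fun v => if v = 1 then 1 else (s : AlgInt)
  have hw1 : (w 1 : ℂ) = 1 := by simp [w]
  have hw2 : ∀ v : G, v ≠ 1 → (w v : ℂ) = s := by
    intro v hv
    simp only [w, if_neg hv]
    push_cast
    rfl
  have key := H477.OZ.congr_w (p := 2) (r := p) Nat.prime_two hp hp2 hz χ hlam w (fun v hv1 hv2 => by
    by_cases hv : v = 1
    · rw [hv, mul_one, hw1, one_mul]
    · rw [hval v hv1.eq hv2 hv, hw2 v hv]) hd (c := 1 + 3 * s) (by
    rw [hT, finsum_mem_coe_finset, Finset.sum_insert h1Tf, hw1, Finset.sum_congr rfl fun v hv => hw2 v fun h1 =>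
      h1Tf (h1 ▸ hv), Finset.sum_const, Finset.card_map, ← hm, hm3, nsmul_eq_mul]
    push_cast
    ring)
  rcases hs with rfl | rfl
  · left
    norm_num at key
    exact key
  · right
    norm_num at key
    exact key

end final

end Cfsg.Agent.H348.OZ
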