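import Cfsg.Agent.H348.OZ.SpEight
import Cfsg.Agent.H672.OZ.Sieve
import Cfsg.Agent.H849.OZ.Bad
import Cfsg.Agent.H933.OZ.Cost
import Cfsg.Agent.H730.OZ.Asm

/-!
# One vanishing class: `PSp₈(2)` (helper348, S4842)

The sieve with the isolated prime 17 leaves 16 degrees.  If `3 ∣ d`, the value at the rational element `y` of order 9
(`|C(y)| = 27`) is divisible by 3: `8 c ≤ 27` or `c = 27`.  If `d` is a power of 2, Burnside's lemma at a central element
of a Sylow 2-subgroup gives `2 ^ 16 ≤ c`.  Both contradict T4 (`c ≤ 25`).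
-/

set_option autoImplicit false
set_option maxRecDepth 100000

open Cfsg Cfsg.Agent.Characters Cfsg.Agent.H732.VZ Cfsg.Agent.H604.OZ

namespace Cfsg.Agent.H348.OZ

open SpE

universe u

/-- powers of a rational element of order 9 -/
theorem conj_pow_nine {G : Type u} [Group G] {y : G} (hy : y ^ 9 = 1) (h : IsConj y (y ^ 2)) {m : ℕ}
    (hm : ¬ 3 ∣ m) : IsConj (y ^ m) y := by
  have hs : ∀ k : ℕ, IsConj y (y ^ (2 ^ k)) := by
    intro k
    induction k with
    | zero => rw [pow_zero, pow_one]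
    | succ k ih =>
      obtain ⟨c, hc⟩ := isConj_iff.1 h
      refine ih.trans ?_
      have h2 : IsConj (y ^ (2 ^ k)) ((y ^ 2) ^ (2 ^ k)) := isConj_iff.2 ⟨c, by rw [← hc, conj_pow]⟩
      rwa [← pow_mul, ← pow_succ'] at h2
  have h9 : y ^ m = y ^ (m % 9) := by
    conv_lhs => rw [← Nat.div_add_mod m 9, pow_add, pow_mul, hy, one_pow, one_mul]
  have h1 : m % 9 = 1 ∨ m % 9 = 2 ∨ m % 9 = 4 ∨ m % 9 = 5 ∨ m % 9 = 7 ∨ m % 9 = 8 := by omega
  have hp : ∀ n r : ℕ, n % 9 = r → y ^ n = y ^ r := by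
    intro n r hr
    conv_lhs => rw [← Nat.div_add_mod n 9, pow_add, pow_mul, hy, one_pow, one_mul, hr]
  rw [h9]
  rcases h1 with h1 | h1 | h1 | h1 | h1 | h1 <;> rw [h1]
  · rw [pow_one]
  · exact h.symm
  · exact (hs 2).symm
  · have := hs 5
    rw [hp (2 ^ 5) 5 (by norm_num)] at this
    exact this.symm
  · have := hs 4
    rw [hp (2 ^ 4) 7 (by norm_num)] at this
    exact this.symm
  · exact (hs 3).symm

/-- a central element of a Sylow subgroup -/
theorem exists_central {G : Type u} [Group G] [Finite G] {r n : ℕ} (hr : r.Prime) (hn : n ≠ 0) (h1 : r ^ n ∣ Nat.card G) :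
    ∃ z : G, z ≠ 1 ∧ r ^ n ∣ cent z := by
  have : Fact r.Prime := ⟨hr⟩
  let P : Sylow r G := default
  have hPr : r ^ n ∣ Nat.card (P : Subgroup G) := P.pow_dvd_card_of_pow_dvd_card h1
  have hPnt : Nontrivial (P : Subgroup G) := by
    rw [← Finite.one_lt_card_iff_nontrivial]
    exact lt_of_lt_of_le (Nat.one_lt_pow hn hr.one_lt) (Nat.le_of_dvd Nat.card_pos hPr)
  have hZ := P.2.center_nontrivial
  obtain ⟨z, hz⟩ := exists_ne (1 : Subgroup.center (P : Subgroup G))
  refine ⟨((z : (P : Subgroup G)) : G), fun h => hz (Subtype.ext (Subtype.ext h)), hPr.trans ?_⟩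
  refine Subgroup.card_dvd_of_le ?_
  intro g hg
  rw [Subgroup.mem_centralizer_singleton_iff]
  exact congrArg Subtype.val (Subgroup.mem_center_iff.1 z.2 ⟨g, hg⟩)

/-- **A degree which is a power of a prime `r`**: `|G|_r ≤ c`. -/
theorem le_cent_of_prime_pow {G : Type u} [Group G] [Finite G] [IsSimpleGroup G] (hna : ¬ IsMulCommutative G)
    {χ : IrrCharacter G} {x : G} (h : One χ x) {r n a : ℕ} (hr : r.Prime) (hn : n ≠ 0) (h1 : r ^ n ∣ Nat.card G)
    (h2 : ¬ r ^ (n + 1) ∣ Nat.card G) (hd : charDegree (χ : G → ℂ) = r ^ a) : r ^ n ≤ cent x := by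
  obtain ⟨z, hz, hzc⟩ := exists_central hr hn h1
  have h3 : (Subgroup.centralizer ({z} : Set G)).index.Coprime (charDegree (χ : G → ℂ)) := by
    rw [hd]
    refine Nat.Coprime.pow_right _ ?_
    rw [Nat.coprime_comm, hr.coprime_iff_not_dvd]
    intro hi
    apply h2
    rw [pow_succ, ← Subgroup.card_mul_index (Subgroup.centralizer ({z} : Set G))]
    exact Nat.mul_dvd_mul hzc hi
  rw [H672.OZ.cent_eq_of_conj (H933.OZ.zero_of_coprime hna χ h hz h3)]
  exact Nat.le_of_dvd Nat.card_pos hzc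

theorem isConj_ey : IsConj ey (ey ^ 2) := by
  refine isConj_iff.2 ⟨eg, ?_⟩
  rw [pow_two, ey_two, eg_conj, mul_inv_cancel_right]

/-- **`Sp₈(2)`.** -/
theorem row_sp8 [IsSimpleGroup Sp8] : H730.OZ.Row Sp8 := by
  have hN := card_sp
  have hna : ¬ IsMulCommutative Sp8 := fun h => by
    have h1 : ez * ey = ey * ez := h.is_comm.comm ez ey
    exact absurd h1 (by decide +kernel)
  refine row_of fun χ x ho => ?_
  have h4 : 4 ≤ cent x := four_le_cent ho (by rw [hN]; norm_num) (by rw [hN]; norm_num)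
  have hiso : ∀ r ∈ [17], charDegree (χ : Sp8 → ℂ) % r = 0 ∨
      charDegree (χ : Sp8 → ℂ) % r = 1 ∨ charDegree (χ : Sp8 → ℂ) % r = r - 1 := by
    intro r hr
    rw [List.mem_singleton] at hr
    subst hr
    exact H672.OZ.iso_mod_of ho (by norm_num) (by norm_num) (by rw [hN]; norm_num) (by rw [hN]; norm_num) order_ez
      cent_ez h4
  have hm := H672.OZ.mem_of_sieve4 ho hN (l := [(2,16),(3,5),(5,2),(7,1),(17,1)]) (by decide +kernel)
    (by
      intro x hx
      simp only [List.mem_cons, List.not_mem_nil, or_false] at hx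
      rcases hx with rfl | rfl | rfl | rfl | rfl <;> norm_num)
    (by decide +kernel) h4 hiso
    (D := [16, 256, 4096, 18, 120, 135, 288, 324, 1920, 2160, 4608, 5184, 30720, 34560, 73728, 82944])
    (by decide +kernel)
  set d := charDegree (χ : Sp8 → ℂ) with hd
  -- `c ≤ 25`
  have hc : cent x ≤ 25 := by
    have h5 : ∀ d ∈ [16, 256, 4096, 18, 120, 135, 288, 324, 1920, 2160, 4608, 5184, 30720, 34560, 73728, 82944],
        ¬ 5 ^ 2 ∣ d ^ 2 - 1 ∨ ¬ 7 ^ 1 ∣ d ^ 2 - 1 := by decide +kernel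
    rcases h5 d hm with h6 | h6
    · have := H672.OZ.cent_le_of ho hN (r := 5) (n := 2) (by norm_num) hd.symm (by norm_num) (by norm_num) h6
      omega
    · have := H672.OZ.cent_le_of ho hN (r := 7) (n := 1) (by norm_num) hd.symm (by norm_num) (by norm_num) h6
      omega
  have h6 : ∀ d ∈ [16, 256, 4096, 18, 120, 135, 288, 324, 1920, 2160, 4608, 5184, 30720, 34560, 73728, 82944],
      (d = 2 ^ 4 ∨ d = 2 ^ 8 ∨ d = 2 ^ 12) ∨ 3 ∣ d := by decide +kernel
  have key : ∀ a : ℕ, d ≠ 2 ^ a := by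
    intro a ha
    have h7 := le_cent_of_prime_pow hna ho Nat.prime_two (n := 16) (by norm_num) (by rw [hN]; norm_num)
      (by rw [hN]; norm_num) ha
    norm_num at h7
    omega
  rcases h6 d hm with (h7 | h7 | h7) | h7
  · exact key _ h7
  · exact key _ h7
  · exact key _ h7
  have hy : ∀ m : ℕ, m.Coprime (Nat.card Sp8) → IsConj (ey ^ m) ey := by
    intro m hm
    refine conj_pow_nine ey_pow9 isConj_ey fun h3 => ?_
    have h8 : 3 ∣ Nat.gcd m (Nat.card Sp8) := Nat.dvd_gcd h3 (by rw [hN]; norm_num)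
    rw [hm] at h8
    omega
  by_cases hxy : IsConj x ey
  · have h8 := H672.OZ.cent_eq_of_conj hxy
    have h9 : 27 ≤ cent ey := cent_ey_ge
    omega
  · have h8 := H849.OZ.one_prime ho Nat.prime_three h7 ⟨2, by rw [order_ey]; norm_num⟩ hy hxy
    have h9 : cent ey ≤ 27 := cent_ey_le
    norm_num at h8
    omega

/-- **`PSp₈(2)`.** -/
theorem row_psp8_two {S : Type u} [Group S] [Finite S] (hs : IsSimpleGroup S) {F : Type*} [Field F] [Fintype F]
    (hF : Fintype.card F = 2) (h : Nonempty (S ≃* PSp 4 F)) : H730.OZ.Row S := by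
  obtain ⟨e⟩ := h
  have e' : S ≃* Sp8 := e.trans (equiv hF)
  have : Nontrivial Sp8 := e'.symm.toEquiv.nontrivial
  have : IsSimpleGroup Sp8 := IsSimpleGroup.isSimpleGroup_of_surjective e'.toMonoidHom e'.surjective
  exact H730.OZ.Row.congr e' row_sp8

end Cfsg.Agent.H348.OZ
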