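import Cfsg.Agent.H348.OZ.ModKit
import Cfsg.Agent.H348.OZ.RowSpEight
import Cfsg.Agent.H477.OZ.SpC
import Cfsg.Agent.H890.OZ.SpTwelve
import Cfsg.Agent.H672.OZ.Sieve

/-!
# One vanishing class: `PSp₁₂(2)` (helper348, S4842; kernel data by helper890)

`d = χ(1)`, `c = |C(x)|`; Kawanaka: the sum of `χ` over the 2-elements is `e 2 ^ m d`.  helper477's congruences modulo
13, 11, 17 and `sum_mod` modulo 31 give `m = 12` (or `m = 72`, excluded), hence `2 ^ 24 ∣ d`.  `c ≥ 6` (no 2-element,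
not 5), `d ≡ ± 1` modulo 31 and 13; the sieve with T4 leaves `2 ^ 30` (central elements) and 9395240960, which is
`- 5` modulo 11, but `|C(e11)| ≤ 18 · 11` allows only `± 1, ± 2, ± 4`.
-/

set_option autoImplicit false
set_option maxRecDepth 100000

open Cfsg Cfsg.Agent.Characters Cfsg.Agent.H732.VZ Cfsg.Agent.H604.OZ

namespace Cfsg.Agent.H348.OZ

open H890.OZ.SpW

universe u

theorem exps : ∀ m < 73, ∀ e ∈ ([1, -1] : List ℤ), (e * 2 ^ m - 1) % 13 = 0 →
    ((e * 2 ^ m - 4) % 11 = 0 ∨ (e * 2 ^ m + 2) % 11 = 0) →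
    ((e * 2 ^ m - 4) % 31 = 0 ∨ (e * 2 ^ m + 2) % 31 = 0) → e = 1 ∧ (m = 12 ∨ m = 72) := by decide +kernel

theorem degs : ∀ d ∈ [2016, 30720, 46656, 268800, 408240, 6220800, 7077888, 61931520, 943718400, 1073741824, 1433272320,
    9395240960, 12541132800, 14269022208], d % 2 ^ 24 = 0 → d = 2 ^ 30 ∨ d = 9395240960 := by decide +kernel

theorem sieve12 : ((Cfsg.Agent.H417.Divs.divs [(2,36),(3,8),(5,3),(7,2),(11,1),(13,1),(17,1),(31,1)]).all fun d =>
    !(H672.OZ.okd4 208114637736580743168000 6 [(2,36),(3,8),(5,3),(7,2),(11,1),(13,1),(17,1),(31,1)] [31, 13] d) ||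
    [2016, 30720, 46656, 268800, 408240, 6220800, 7077888, 61931520, 943718400, 1073741824, 1433272320,
    9395240960, 12541132800, 14269022208].contains d) = true := by decide +kernel

theorem mod_of_frob {d m : ℕ} {e z : ℤ} (he : e = 1) (hm : m = 12)
    (h : (e : ℂ) * ((2 : ℕ) : ℂ) ^ m * ((d : ℕ) : ℂ) = ((2 ^ 36 : ℕ) : ℂ) * z) : d % 2 ^ 24 = 0 := by
  rw [he, hm] at h
  have h1 : (2 : ℤ) ^ 12 * (d : ℤ) = 2 ^ 36 * z := by
    have h2 : (((2 : ℤ) ^ 12 * (d : ℤ) : ℤ) : ℂ) = ((2 ^ 36 * z : ℤ) : ℂ) := by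
      push_cast at h ⊢
      linear_combination h
    exact_mod_cast h2
  have h3 : (d : ℤ) = 2 ^ 24 * z := by linarith
  omega

/-- the factorization of the order -/
abbrev L12 : List (ℕ × ℕ) := [(2,36),(3,8),(5,3),(7,2),(11,1),(13,1),(17,1),(31,1)]

set_option maxHeartbeats 2000000 in
/-- **`Sp₁₂(2)`.** -/
theorem row_sp12 [IsSimpleGroup Sp12] : H730.OZ.Row Sp12 := by
  classical
  have hN := card_sp
  have hna : ¬ IsMulCommutative Sp12 := fun h => by
    have h1 : ea * eb = eb * ea := h.is_comm.comm ea eb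
    exact absurd h1 (by decide +kernel)
  refine row_of fun χ x ho => ?_
  have := Fintype.ofFinite Sp12
  have h4 : 4 ≤ cent x := four_le_cent ho (by rw [hN]; norm_num) (by rw [hN]; norm_num)
  set d := charDegree (χ : Sp12 → ℂ) with hd
  -- Kawanaka
  let e' : Sp12 ≃* PSp 6 (ZMod 2) := (equiv (F := ZMod 2) (ZMod.card 2)).symm
  have hKaw : H730.OZ.Kaw 2 Sp12 := H366.OZ.kaw_psp e' (by norm_num)
  have hSp : H477.OZ.SpCong 2 6 (Fintype.card (ZMod 2)) Sp12 := H477.OZ.spCong_psp e' (by norm_num)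
  rw [ZMod.card 2] at hSp
  have hv : (Nat.card Sp12).factorization 2 = 36 := by
    have h1 := H366.OZ.fact_psp e' (by norm_num) Nat.prime_two (a := 1) (by norm_num) (by rw [ZMod.card 2, pow_one])
    rw [h1]
    norm_num
  have hM : (H730.OZ.pSet 2 Sp12).ncard = 2 ^ 72 := by rw [hKaw.card, hv]
  -- `6 ≤ c`
  have h6 : 6 ≤ cent x := by
    by_contra hlt
    have h1 : cent x = 4 ∨ cent x = 5 := by omega
    rcases h1 with h1 | h1
    · have h2 : orderOf x ∣ 2 ^ 2 := by
        have h3 := orderOf_dvd_centralizer (Commute.refl x)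
        rw [show Nat.card (Subgroup.centralizer ({x} : Set Sp12)) = 4 from h1] at h3
        exact h3
      obtain ⟨k, -, hk⟩ := (Nat.dvd_prime_pow Nat.prime_two).1 h2
      have h3 := card_le_of_two ho hM ⟨k, hk⟩
      rw [hN, show Nat.card (Subgroup.centralizer ({x} : Set Sp12)) = 4 from h1] at h3
      norm_num at h3
    · exact ho.ne_prime (r := 5) (by norm_num) (by rw [hN]; norm_num) h1
  -- `x` is regular
  have hx31 : ¬ 31 ∣ orderOf x := by
    rcases Nat.lt_or_ge 31 (cent x) with h1 | h1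
    · exact H733.OZ.not_dvd_orderOf ho (r := 31) (n := 1) (by norm_num) (by rw [hN]; norm_num) (by rw [hN]; norm_num)
        (by rw [pow_one]; exact h1)
    · exact H849.OZ.not_dvd_of_le (by norm_num) (by rw [hN]; norm_num) order31 (by rw [cent31]; norm_num) h1
  have hx13 : ¬ 13 ∣ orderOf x := by
    rcases Nat.lt_or_ge 13 (cent x) with h1 | h1
    · exact H733.OZ.not_dvd_orderOf ho (r := 13) (n := 1) (by norm_num) (by rw [hN]; norm_num) (by rw [hN]; norm_num)
        (by rw [pow_one]; exact h1)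
    · have hz : orderOf (e65 ^ 5) = 13 := by
        rw [orderOf_pow_of_dvd (by norm_num) (by rw [order65]; norm_num), order65]
      refine H849.OZ.not_dvd_of_le (by norm_num) (by rw [hN]; norm_num) hz ?_ h1
      have h2 : Subgroup.zpowers e65 ≤ Subgroup.centralizer ({e65 ^ 5} : Set Sp12) := by
        rw [Subgroup.zpowers_le, Subgroup.mem_centralizer_singleton_iff, ← pow_succ, ← pow_succ']
      have h3 := Subgroup.card_le_of_le h2
      rw [Nat.card_zpowers, order65] at h3
      omega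
  have hx11 : ¬ 11 ∣ orderOf x := by
    rcases Nat.lt_or_ge 11 (cent x) with h1 | h1
    · exact H733.OZ.not_dvd_orderOf ho (r := 11) (n := 1) (by norm_num) (by rw [hN]; norm_num) (by rw [hN]; norm_num)
        (by rw [pow_one]; exact h1)
    · exact H849.OZ.not_dvd_of_le (by norm_num) (by rw [hN]; norm_num) order11 cent11_gt h1
  -- the residues modulo 31, 13
  have h31 : d % 31 = 1 ∨ d % 31 = 31 - 1 := H849.OZ.mod_of_classes (p := 31) (by norm_num) (by norm_num)
    (by rw [hN]; norm_num) (by rw [hN]; norm_num) order31 cls31 ho hx31 h4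
  have h13 : d % 13 = 1 ∨ d % 13 = 13 - 1 := mod_of_five (p := 13) (by norm_num) (by norm_num) (by rw [hN]; norm_num)
    (by rw [hN]; norm_num) order65 cent13_le en_conj ho hx13
    (lt_of_lt_of_le (by norm_num) (Nat.mul_le_mul_left 3 h6)) h4
  have hiso : ∀ r ∈ [31, 13], charDegree (χ : Sp12 → ℂ) % r = 0 ∨
      charDegree (χ : Sp12 → ℂ) % r = 1 ∨ charDegree (χ : Sp12 → ℂ) % r = r - 1 := by
    intro r hr
    simp only [List.mem_cons, List.not_mem_nil, or_false] at hr
    rcases hr with rfl | rfl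
    · exact Or.inr h31
    · exact Or.inr h13
  have hm := H672.OZ.mem_of_sieve4 ho hN (l := L12) (by decide +kernel)
    (by
      intro x hx
      simp only [L12, List.mem_cons, List.not_mem_nil, or_false] at hx
      rcases hx with rfl | rfl | rfl | rfl | rfl | rfl | rfl | rfl <;> norm_num)
    (by decide +kernel) h6 hiso sieve12
  -- the sum over the 2-elements
  have ho' : H730.OZ.OneZero (χ : Sp12 → ℂ) := (oneZero_iff χ.2).2 ⟨x, ho⟩
  obtain ⟨m, e, he, hsum⟩ := hKaw.sum χ χ.2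
  obtain ⟨hmle, hmtop⟩ := hKaw.top Nat.prime_two χ.2 he hsum
  rw [hv] at hmle hmtop
  have c13 : (e * 2 ^ m - 1) % 13 = 0 := by
    obtain ⟨c, hc, hdc⟩ := hSp 0 13 (by norm_num) (by norm_num) (by norm_num)
      ((orderOf_eq_iff (by norm_num)).2 ⟨by decide, by decide⟩) χ χ.2 ho' m e he hsum
    have hc1 : c = 1 := by simpa [H477.OZ.cSet] using hc
    rw [hc1] at hdc
    exact Int.emod_eq_zero_of_dvd (by exact_mod_cast hdc)
  have c11 : (e * 2 ^ m - 4) % 11 = 0 ∨ (e * 2 ^ m + 2) % 11 = 0 := by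
    obtain ⟨c, hc, hdc⟩ := hSp 1 11 (by norm_num) (by norm_num) (by norm_num)
      ((orderOf_eq_iff (by norm_num)).2 ⟨by decide, by decide⟩) χ χ.2 ho' m e he hsum
    have hc1 : c = 4 ∨ c = -2 := by simpa [H477.OZ.cSet] using hc
    rcases hc1 with rfl | rfl
    · exact Or.inl (Int.emod_eq_zero_of_dvd (by exact_mod_cast hdc))
    · right
      rw [sub_neg_eq_add] at hdc
      exact Int.emod_eq_zero_of_dvd (by exact_mod_cast hdc)
  have c31 : (e * 2 ^ m - 4) % 31 = 0 ∨ (e * 2 ^ m + 2) % 31 = 0 := by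
    have hnd : ¬ 31 ∣ charDegree (χ : Sp12 → ℂ) := fun hdd => by
      rw [← hd] at hdd
      omega
    rcases sum_mod (p := 31) (by norm_num) (by norm_num) (by rw [hN]; norm_num) (by rw [hN]; norm_num) order31
      (by rw [cent31]) ea_sq ea_ne ea_comm eb_comm (by decide +kernel) cls31 ho hx31 h4 hnd
      (lam := e * 2 ^ m) (by rw [hsum]; push_cast; ring) with h1 | h1
    · exact Or.inl (Int.emod_eq_zero_of_dvd (by exact_mod_cast h1))
    · exact Or.inr (Int.emod_eq_zero_of_dvd (by exact_mod_cast h1))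
  obtain ⟨he1, hm2⟩ := exps m (by omega) e (by rcases he with rfl | rfl <;> simp) c13 c11 c31
  have hd0 : 0 < charDegree (χ : Sp12 → ℂ) := H686.CharKit.charDegree_pos χ
  have hdc := H686.CharKit.charDegree_irr χ
  rcases hm2 with hm2 | hm2
  · -- `m = 12`
    obtain ⟨z, hz⟩ := H730.OZ.frob Nat.prime_two χ.2
    rw [hsum, hv, ← hdc] at hz
    have h2 : d % 2 ^ 24 = 0 := mod_of_frob he1 hm2 hz
    rcases degs d hm h2 with h3 | h3
    · have h7 := le_cent_of_prime_pow hna ho Nat.prime_two (n := 36) (by norm_num)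
        (by rw [hN]; norm_num) (by rw [hN]; norm_num) (a := 30) (by rw [← hd]; exact h3)
      have h8 := H672.OZ.cent_le_of ho hN (r := 17) (n := 1) (d := 2 ^ 30) (by norm_num) (by rw [← hd]; exact h3)
        (by norm_num) (by norm_num) (by norm_num)
      norm_num at h7 h8
      omega
    · obtain ⟨ε, s, k, hε, hs, h5⟩ := mod_of_eighteen (p := 11) (by norm_num) (by norm_num) (by rw [hN]; norm_num)
        (by rw [hN]; norm_num) order11 (cent11_le.trans (by norm_num)) ho hx11
        (lt_of_lt_of_le (by norm_num) (Nat.mul_le_mul_left 2 h6)) h4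
      rw [← hd, h3] at h5
      rcases hε with rfl | rfl <;> rcases hs with rfl | rfl | rfl <;> push_cast at h5 <;> omega
  · -- `m = 72`
    have hall := hmtop (by rw [hm2])
    have hu2 : ea ∈ H730.OZ.pSet 2 Sp12 := ⟨1, by rw [order_ea, pow_one]⟩
    have hu1 := hall ea hu2
    set K := H686.CharKit.chKer χ with hKdef
    have huK : ea ∈ K := H686.CharKit.mem_chKer.2 hu1
    have hKtop : K = ⊤ := by
      rcases (inferInstance : IsSimpleGroup Sp12).eq_bot_or_eq_top_of_normal K inferInstance with h | h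
      · exfalso
        rw [h, Subgroup.mem_bot] at huK
        exact ea_ne huK
      · exact h
    have hxK : x ∈ K := by rw [hKtop]; exact Subgroup.mem_top _
    have hx1 : (χ : Sp12 → ℂ) x = (χ : Sp12 → ℂ) 1 := H686.CharKit.mem_chKer.1 hxK
    rw [ho.zero, ← hdc] at hx1
    have : (charDegree (χ : Sp12 → ℂ) : ℂ) ≠ 0 := by exact_mod_cast hd0.ne'
    exact this hx1.symm

/-- **`PSp₁₂(2)`.** -/
theorem row_psp12_two {S : Type u} [Group S] [Finite S] (hs : IsSimpleGroup S) {F : Type*} [Field F] [Fintype F]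
    (hF : Fintype.card F = 2) (h : Nonempty (S ≃* PSp 6 F)) : H730.OZ.Row S := by
  obtain ⟨e⟩ := h
  have e' : S ≃* Sp12 := e.trans (equiv hF)
  have : Nontrivial Sp12 := e'.symm.toEquiv.nontrivial
  have : IsSimpleGroup Sp12 := IsSimpleGroup.isSimpleGroup_of_surjective e'.toMonoidHom e'.surjective
  exact H730.OZ.Row.congr e' row_sp12

end Cfsg.Agent.H348.OZ
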