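import Cfsg.Agent.SporadicA.PermTab
import Cfsg.Agent.LieClassical.FieldTransfer
import Cfsg.Agent.S0245
import Cfsg.Agent.S0246

/-!
# `Sp₈(2)`: elements of order 17 and 9 and their centralizers (helper348, for the row `PSp₈(2)` of S4842)

* `card_sp` : `|Sp₈(2)| = 47377612800`;  `equiv` : `PSp₈(F) ≃* Sp₈(2)`, `|F| = 2`;
* `card_cent_le` : the order of the centralizer of a cyclic matrix (vector codes, quadratic forms `J Y ^ i`);
* `ez` : order 17, `|C| ≤ 17`;  `ey` : order 9, `|C| ≤ 27`, `eg ey eg⁻¹ = ey²`, `eu ∈ C(ey)`, of order 3, not in `⟨ey⟩`.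
-/

set_option autoImplicit false
set_option maxRecDepth 100000

namespace Cfsg.Agent.H348.OZ.SpE

open Matrix Cfsg.Agent.SporadicA.PermTab

/-- the index set -/
abbrev I8 : Type := Fin 4 ⊕ Fin 4

/-- index -/
def ix : I8 → ℕ
  | .inl i => i
  | .inr i => 4 + i

/-- a matrix from its rows -/
def sm (l : List ℕ) : Matrix I8 I8 (ZMod 2) :=
  Matrix.of fun i j => if (l.getD (ix i) 0).testBit (ix j) then 1 else 0

/-- a matrix from its columns -/
def km (l : List ℕ) : Matrix I8 I8 (ZMod 2) :=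
  Matrix.of fun i j => if (l.getD (ix j) 0).testBit (ix i) then 1 else 0

/-- `Sp₈(2)` -/
abbrev Sp8 : Type := symplecticGroup (Fin 4) (ZMod 2)

/-- an element of `Sp₈(2)` -/
def se (l : List ℕ) (h : sm l * J (Fin 4) (ZMod 2) * (sm l)ᵀ = J (Fin 4) (ZMod 2)) : Sp8 :=
  ⟨sm l, SymplecticGroup.mem_iff.mpr h⟩

/-- a vector from its code -/
def dec (a : ℕ) : I8 → ZMod 2 := fun i => if a.testBit (ix i) then 1 else 0

theorem ix_surj {k : ℕ} (hk : k < 8) : ∃ i : I8, ix i = k := by
  rcases Nat.lt_or_ge k 4 with h | h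
  · exact ⟨.inl ⟨k, h⟩, rfl⟩
  · exact ⟨.inr ⟨k - 4, by omega⟩, by simp [ix]; omega⟩

theorem dec_inj : Function.Injective fun a : Fin 256 => dec a := by
  intro a b h
  apply Fin.ext
  apply Nat.eq_of_testBit_eq
  intro k
  rcases Nat.lt_or_ge k 8 with hk | hk
  · obtain ⟨i, hi⟩ := ix_surj hk
    have h1 := congrFun h i
    simp only [dec, hi] at h1
    cases h2 : (a : ℕ).testBit k <;> cases h3 : (b : ℕ).testBit k
    · rfl
    · rw [h2, h3] at h1
      exact absurd h1 (by decide)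
    · rw [h2, h3] at h1
      exact absurd h1 (by decide)
    · rfl
  · have h1 : ∀ c : Fin 256, (c : ℕ).testBit k = false := fun c => by
      apply Nat.testBit_lt_two_pow
      exact lt_of_lt_of_le c.2 (Nat.pow_le_pow_right (n := 2) (by norm_num) hk : 2 ^ 8 ≤ 2 ^ k)
    rw [h1 a, h1 b]

theorem dec_surj (v : I8 → ZMod 2) : ∃ a : Fin 256, dec a = v := by
  have h := (Fintype.bijective_iff_injective_and_card fun a : Fin 256 => dec a).2 ⟨dec_inj, by
    rw [Fintype.card_fun, ZMod.card, Fintype.card_sum, Fintype.card_fin, Fintype.card_fin]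
    norm_num⟩
  exact h.2 v

/-- the forms `M` in the list have the same value at `v`, `a` -/
def tst (Ms : List (List ℕ)) (v a : ℕ) : Bool :=
  Ms.all fun M => decide (dec a ⬝ᵥ (sm M *ᵥ dec a) = dec v ⬝ᵥ (sm M *ᵥ dec v))

/-- `M` is a form invariant under the centralizer of `Y` -/
def Inv (Y : Sp8) (M : Matrix I8 I8 (ZMod 2)) : Prop := ∀ g : Sp8, g * Y = Y * g → g.1ᵀ * M * g.1 = M

theorem inv_J (Y : Sp8) : Inv Y (J (Fin 4) (ZMod 2)) := fun g _ => SymplecticGroup.mem_iff'.1 g.2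

theorem Inv.mul {Y : Sp8} {M : Matrix I8 I8 (ZMod 2)} (h : Inv Y M) {l : List ℕ} (hl : sm l = M * Y.1) : Inv Y (sm l) := by
  intro g hg
  have h1 : g.1 * Y.1 = Y.1 * g.1 := congrArg Subtype.val hg
  rw [hl, Matrix.mul_assoc, Matrix.mul_assoc, ← h1, ← Matrix.mul_assoc, ← Matrix.mul_assoc, h g hg]

theorem form_mulVec (g M : Matrix I8 I8 (ZMod 2)) (v : I8 → ZMod 2) :
    (g *ᵥ v) ⬝ᵥ (M *ᵥ (g *ᵥ v)) = v ⬝ᵥ ((gᵀ * M * g) *ᵥ v) := by
  rw [Matrix.dotProduct_mulVec, Matrix.vecMul_mulVec, ← Matrix.dotProduct_mulVec, Matrix.mulVec_mulVec]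

theorem card_cent_le {Y : Sp8} {kc : List ℕ} {K' : Matrix I8 I8 (ZMod 2)} {Ms : List (List ℕ)} {m : ℕ}
    (hcol : ∀ j < 7, Y.1 *ᵥ dec (kc.getD j 0) = dec (kc.getD (j + 1) 0)) (hK : km kc * K' = 1)
    (hM : ∀ M ∈ Ms, Inv Y (sm M)) (ht : cntB (tst Ms (kc.getD 0 0)) 256 m = true) :
    Nat.card (Subgroup.centralizer ({Y} : Set Sp8)) ≤ m := by
  classical
  have hc : ∀ g : Subgroup.centralizer ({Y} : Set Sp8), g.1 * Y = Y * g.1 := fun g =>
    Subgroup.mem_centralizer_singleton_iff.1 g.2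
  choose f hf using fun g : Subgroup.centralizer ({Y} : Set Sp8) => dec_surj (g.1.1 *ᵥ dec (kc.getD 0 0))
  have hmem : ∀ g, f g ∈ (Finset.univ : Finset (Fin 256)).filter fun a : Fin 256 => tst Ms (kc.getD 0 0) a = true := by
    intro g
    rw [Finset.mem_filter]
    refine ⟨Finset.mem_univ _, ?_⟩
    rw [tst, List.all_eq_true]
    intro M hMM
    rw [decide_eq_true_eq, hf g, form_mulVec, hM M hMM g.1 (hc g)]
  have hinj : Function.Injective f := by
    intro g h hgh
    have h0 : g.1.1 *ᵥ dec (kc.getD 0 0) = h.1.1 *ᵥ dec (kc.getD 0 0) := by rw [← hf g, ← hf h, hgh]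
    have h1 : ∀ j < 8, g.1.1 *ᵥ dec (kc.getD j 0) = h.1.1 *ᵥ dec (kc.getD j 0) := by
      intro j
      induction j with
      | zero => exact fun _ => h0
      | succ j ih =>
        intro hj
        have h2 := ih (by omega)
        rw [← hcol j (by omega), Matrix.mulVec_mulVec, Matrix.mulVec_mulVec]
        have h3 : g.1.1 * Y.1 = Y.1 * g.1.1 := congrArg Subtype.val (hc g)
        have h4 : h.1.1 * Y.1 = Y.1 * h.1.1 := congrArg Subtype.val (hc h)
        rw [h3, h4, ← Matrix.mulVec_mulVec, ← Matrix.mulVec_mulVec, h2]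
    have h2 : g.1.1 * km kc = h.1.1 * km kc := by
      ext i j
      have h3 := congrFun (h1 (ix j) (by rcases j with j | j <;> simp [ix] <;> omega)) i
      exact h3
    have h3 : g.1.1 = h.1.1 := by
      rw [← Matrix.mul_one g.1.1, ← hK, ← Matrix.mul_assoc, h2, Matrix.mul_assoc, hK, Matrix.mul_one]
    exact Subtype.ext (Subtype.ext h3)
  rw [← card_fin_of_cntB _ 256 m ht, ← Nat.card_eq_finsetCard]
  exact Nat.card_le_card_of_injective (fun g => (⟨f g, hmem g⟩ : {a // a ∈ _})) fun g h e =>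
    hinj (congrArg (fun z => (z : {a // a ∈ (Finset.univ : Finset (Fin 256)).filter fun a : Fin 256 =>
      tst Ms (kc.getD 0 0) a = true}).1) e)

/-! ### The elements -/

theorem card_sp : Nat.card Sp8 = 47377612800 := by
  rw [Cfsg.Agent.S0245.result (F := ZMod 2) (q := 2) (ZMod.card 2) 4]
  decide +kernel

theorem center_bot : Subgroup.center Sp8 = ⊥ := by
  have h := Cfsg.Agent.S0246.result (F := ZMod 2) (q := 2) (ZMod.card 2) 4 (by norm_num)
  exact Subgroup.card_eq_one.1 h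

/-- `PSp₈(F) ≃* Sp₈(2)`, `|F| = 2` -/
noncomputable def equiv {F : Type*} [Field F] [Fintype F] (hF : Fintype.card F = 2) : Cfsg.PSp 4 F ≃* Sp8 :=
  (LieClassical.FieldTransfer.pspCongr 4 (ZMod.ringEquivOfPrime F Nat.prime_two hF).symm).trans
    ((QuotientGroup.quotientMulEquivOfEq center_bot).trans QuotientGroup.quotientBot)

def ez : Sp8 := se [191, 4, 40, 37, 5, 120, 164, 143] (by decide +kernel)
def ez2 : Sp8 := se [68, 40, 93, 239, 151, 252, 223, 57] (by decide +kernel)
def ez4 : Sp8 := se [130, 19, 190, 196, 159, 63, 175, 192] (by decide +kernel)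
def ez8 : Sp8 := se [211, 14, 9, 209, 180, 75, 20, 111] (by decide +kernel)
def ez16 : Sp8 := se [18, 214, 2, 28, 153, 24, 189, 90] (by decide +kernel)

def ey : Sp8 := se [130, 84, 149, 173, 206, 71, 211, 2] (by decide +kernel)
def ey2 : Sp8 := se [86, 136, 219, 255, 189, 144, 201, 84] (by decide +kernel)
def ey3 : Sp8 := se [220, 175, 100, 182, 49, 204, 254, 136] (by decide +kernel)
def ey6 : Sp8 := se [149, 229, 86, 190, 33, 164, 246, 62] (by decide +kernel)
def eu : Sp8 := se [127, 124, 76, 8, 16, 94, 62, 200] (by decide +kernel)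
def eu2 : Sp8 := se [55, 52, 122, 8, 16, 22, 118, 254] (by decide +kernel)
def eg : Sp8 := se [142, 17, 95, 96, 8, 56, 40, 44] (by decide +kernel)

theorem ez_two : ez * ez = ez2 := by decide +kernel
theorem ez_four : ez2 * ez2 = ez4 := by decide +kernel
theorem ez_eight : ez4 * ez4 = ez8 := by decide +kernel
theorem ez_sixteen : ez8 * ez8 = ez16 := by decide +kernel
theorem ez_sev : ez16 * ez = 1 := by decide +kernel
theorem ez_ne : ez ≠ 1 := by decide +kernel

theorem ey_two : ey * ey = ey2 := by decide +kernel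
theorem ey_three : ey2 * ey = ey3 := by decide +kernel
theorem ey_six : ey3 * ey3 = ey6 := by decide +kernel
theorem ey_nine : ey6 * ey3 = 1 := by decide +kernel
theorem ey3_ne : ey3 ≠ 1 := by decide +kernel
theorem eu_two : eu * eu = eu2 := by decide +kernel
theorem eu_three : eu2 * eu = 1 := by decide +kernel
theorem eu_ne : eu ≠ 1 := by decide +kernel
theorem eu_ne3 : eu ≠ ey3 := by decide +kernel
theorem eu_ne6 : eu ≠ ey6 := by decide +kernel
theorem eu_comm : eu * ey = ey * eu := by decide +kernel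
theorem eg_conj : eg * ey = ey2 * eg := by decide +kernel

theorem order_ez : orderOf ez = 17 := by
  have : Fact (Nat.Prime 17) := ⟨by norm_num⟩
  refine orderOf_eq_prime ?_ ez_ne
  have h : ez ^ 17 = (((ez ^ 2) ^ 2) ^ 2) ^ 2 * ez := by rw [← pow_mul, ← pow_mul, ← pow_mul, ← pow_succ]
  rw [h, pow_two ez, ez_two, pow_two ez2, ez_four, pow_two ez4, ez_eight, pow_two ez8, ez_sixteen, ez_sev]

theorem ey_pow3 : ey ^ 3 = ey3 := by
  rw [pow_succ, pow_two, ey_two, ey_three]

theorem ey_pow6 : ey ^ 6 = ey6 := by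
  rw [show 6 = 3 * 2 by norm_num, pow_mul, ey_pow3, pow_two, ey_six]

theorem ey_pow9 : ey ^ 9 = 1 := by
  rw [show 9 = 6 + 3 by norm_num, pow_add, ey_pow6, ey_pow3, ey_nine]

theorem order_ey : orderOf ey = 9 := by
  have : Fact (Nat.Prime 3) := ⟨by norm_num⟩
  exact orderOf_eq_prime_pow (p := 3) (n := 1) (by rw [pow_one, ey_pow3]; exact ey3_ne)
    (by norm_num; exact ey_pow9)

theorem eu_pow3 : eu ^ 3 = 1 := by
  rw [pow_succ, pow_two, eu_two, eu_three]

theorem eu_not_mem : eu ∉ Subgroup.zpowers ey := by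
  intro h
  obtain ⟨k, hk⟩ := (mem_zpowers_iff_mem_range_orderOf (x := ey) (y := eu)).1 h |> fun h => by
    rw [Finset.mem_image] at h
    exact h
  obtain ⟨hk1, hk2⟩ := hk
  rw [Finset.mem_range, order_ey] at hk1
  have h3 : ey ^ (k * 3) = 1 := by
    rw [pow_mul, hk2, eu_pow3]
  have h4 := orderOf_dvd_of_pow_eq_one h3
  rw [order_ey] at h4
  have h5 : k = 0 ∨ k = 3 ∨ k = 6 := by omega
  rcases h5 with rfl | rfl | rfl
  · rw [pow_zero] at hk2
    exact eu_ne hk2.symm
  · rw [ey_pow3] at hk2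
    exact eu_ne3 hk2.symm
  · rw [ey_pow6] at hk2
    exact eu_ne6 hk2.symm

theorem cent_ez : Nat.card (Subgroup.centralizer ({ez} : Set Sp8)) ≤ 17 := by
  refine card_cent_le (Y := ez) (kc := [1, 153, 220, 190, 114, 237, 107, 240]) (K' := km [1, 194, 240, 77, 28, 57, 247, 82])
    (Ms := [[5, 120, 164, 143, 191, 4, 40, 37], [151, 252, 223, 57, 68, 40, 93, 239], [25, 91, 152, 231, 140, 93, 19, 229], [159, 63, 175, 192, 130, 19, 190, 196]]) ?_ ?_ ?_ ?_
  · decide +kernel
  · decide +kernel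
  · have h1 : Inv ez (sm [5, 120, 164, 143, 191, 4, 40, 37]) := (inv_J ez).mul (by decide +kernel)
    have h2 : Inv ez (sm [151, 252, 223, 57, 68, 40, 93, 239]) := h1.mul (by decide +kernel)
    have h3 : Inv ez (sm [25, 91, 152, 231, 140, 93, 19, 229]) := h2.mul (by decide +kernel)
    have h4 : Inv ez (sm [159, 63, 175, 192, 130, 19, 190, 196]) := h3.mul (by decide +kernel)
    intro M hM
    simp only [List.mem_cons, List.not_mem_nil, or_false] at hM
    rcases hM with rfl | rfl | rfl | rfl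
    · exact h1
    · exact h2
    · exact h3
    · exact h4
  · decide +kernel

theorem cent_ey_le : Nat.card (Subgroup.centralizer ({ey} : Set Sp8)) ≤ 27 := by
  refine card_cent_le (Y := ey) (kc := [2, 241, 13, 74, 155, 158, 204, 9]) (K' := km [180, 1, 132, 52, 92, 26, 61, 205])
    (Ms := [[206, 71, 211, 2, 130, 84, 149, 173], [189, 144, 201, 84, 86, 136, 219, 255], [49, 204, 254, 136, 220, 175, 100, 182], [11, 233, 52, 175, 39, 171, 1, 74]]) ?_ ?_ ?_ ?_
  · decide +kernel
  · decide +kernel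
  · have h1 : Inv ey (sm [206, 71, 211, 2, 130, 84, 149, 173]) := (inv_J ey).mul (by decide +kernel)
    have h2 : Inv ey (sm [189, 144, 201, 84, 86, 136, 219, 255]) := h1.mul (by decide +kernel)
    have h3 : Inv ey (sm [49, 204, 254, 136, 220, 175, 100, 182]) := h2.mul (by decide +kernel)
    have h4 : Inv ey (sm [11, 233, 52, 175, 39, 171, 1, 74]) := h3.mul (by decide +kernel)
    intro M hM
    simp only [List.mem_cons, List.not_mem_nil, or_false] at hM
    rcases hM with rfl | rfl | rfl | rfl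
    · exact h1
    · exact h2
    · exact h3
    · exact h4
  · decide +kernel

theorem cent_ey_ge : 27 ≤ Nat.card (Subgroup.centralizer ({ey} : Set Sp8)) := by
  have hyC : ey ∈ Subgroup.centralizer ({ey} : Set Sp8) := Subgroup.mem_centralizer_singleton_iff.2 rfl
  have huC : eu ∈ Subgroup.centralizer ({ey} : Set Sp8) := Subgroup.mem_centralizer_singleton_iff.2 eu_comm
  have hle : Subgroup.zpowers ey ≤ Subgroup.centralizer ({ey} : Set Sp8) := by rwa [Subgroup.zpowers_le]
  let f : Subgroup.zpowers ey × Fin 3 → Subgroup.centralizer ({ey} : Set Sp8) := fun p =>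
    ⟨p.1.1 * eu ^ (p.2 : ℕ), Subgroup.mul_mem _ (hle p.1.2) (Subgroup.pow_mem _ huC _)⟩
  have hf : Function.Injective f := by
    rintro ⟨⟨a, ha⟩, i⟩ ⟨⟨b, hb⟩, j⟩ h
    have h1 : a * eu ^ (i : ℕ) = b * eu ^ (j : ℕ) := congrArg Subtype.val h
    have h2 : eu ^ (i : ℕ) * (eu ^ (j : ℕ))⁻¹ ∈ Subgroup.zpowers ey := by
      have h3 : eu ^ (i : ℕ) * (eu ^ (j : ℕ))⁻¹ = a⁻¹ * b := by
        rw [mul_inv_eq_iff_eq_mul, mul_assoc, ← h1, inv_mul_cancel_left]
      rw [h3]
      exact Subgroup.mul_mem _ (Subgroup.inv_mem _ ha) hb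
    have h4 : ∀ n : ℤ, eu ^ n ∈ Subgroup.zpowers ey → (3 : ℤ) ∣ n := by
      intro n hn
      by_contra hd
      apply eu_not_mem
      have h5 : ∃ s : ℤ, n * s % 3 = 1 := ⟨n, by
        have : n % 3 = 1 ∨ n % 3 = 2 := by omega
        rcases this with h | h <;> simp [Int.mul_emod, h]⟩
      obtain ⟨s, hs⟩ := h5
      have h6 : eu = (eu ^ n) ^ s := by
        rw [← _root_.zpow_mul, ← Int.mul_ediv_add_emod (n * s) 3, hs, _root_.zpow_add, _root_.zpow_mul]
        have : eu ^ (3 : ℤ) = 1 := by exact_mod_cast eu_pow3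
        rw [this, _root_.one_zpow, one_mul, _root_.zpow_one]
      rw [h6]
      exact Subgroup.zpow_mem _ hn s
    have h5 := h4 ((i : ℤ) - (j : ℤ)) (by rw [_root_.zpow_sub, _root_.zpow_natCast, _root_.zpow_natCast]; exact h2)
    have h6 : i = j := by
      have := i.2
      have := j.2
      apply Fin.ext
      omega
    subst h6
    have h7 : a = b := mul_right_cancel h1
    subst h7
    rfl
  have h := Nat.card_le_card_of_injective f hf
  rw [Nat.card_prod, Nat.card_zpowers, order_ey, Nat.card_eq_fintype_card, Fintype.card_fin] at h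
  exact h

end Cfsg.Agent.H348.OZ.SpE
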